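import Cfsg.Agent.Lib.Helper19.PresFi22
import Cfsg.Agent.Lib.Helper19.TC2P

/-! Generated file: certificates for the order of a presented group. -/

set_option autoImplicit false
set_option maxRecDepth 1000000

namespace Cfsg.Agent.Lib.Helper19.OrdFi22.U6

open Cfsg.Agent.Lib.Helper19.TCS (evn evn_rot evn_rev evn_pair AllS forall_of_allS lift_rels mk_eq_lift cox_swap shapeI prod_rep index_of_equiv orbit_ncard orbit_image ncard_interval fix_of_closure RC)
open Cfsg.Agent.Lib.Helper19.TC2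
open Cfsg.Spor Cfsg.Agent.Lib.Helper19.PresFi22

noncomputable section

def T0 : Tb := (.leaf 0x25d8)
def J0 : Tb := (.leaf 0x20004)
def L0 : Letter := (0, T0, J0)
def T1 : Tb := (.leaf 0x1a15)
def J1 : Tb := (.leaf 0x30100)
def L1 : Letter := (1, T1, J1)
def tC : Tb := (.leaf 0x0)
def tJC : Tb := (.leaf 0x0)
def tPP : Tb := (.leaf 0x818480)
def W0 : List Letter := [L1, L1]
def W1 : List Letter := [L0, L0]
def W2 : List Letter := [L1, L0, L1, L0, L1, L0]
def wtree : Tr := (.node (.node (.leaf W0) (.leaf W2)) (.leaf W1))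
def wsubs : List (List Letter × List Letter) := [([], [L0])]
def cert : Par := { w := 2, mw := 3, w5 := 7, fw := 5, mf := 31, jw := 8, mj := 255, k := 6, km := 63, C := tC, JC := tJC, PP := tPP, D := 1, M := 3, R := 3, S := 5, tree := wtree, subs := wsubs, LS := [L0, L1] }

end

theorem al0 : al cert 0 = true := by decide +kernel

theorem cnt : cntA (al cert) 3 0 = 3 := by decide +kernel

theorem row_ok0 : loop (row cert) 0 3 = true := by decide +kernel

theorem hsel : ∀ k < cert.LS.length, (sel cert.LS k).1 = k := by decide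

theorem lf0 : (∀ p ∈ W0, p ∈ cert.LS) ∧ ev (fun k => el (jm [2, 3] k)) W0 = 1 :=
  leaf_okJ cert el [2, 3] hsel [1, 1] [3, 3] W0 rfl (by decide) rfl (evn_pair el el_sq 3)

theorem lf1 : (∀ p ∈ W1, p ∈ cert.LS) ∧ ev (fun k => el (jm [2, 3] k)) W1 = 1 :=
  leaf_okJ cert el [2, 3] hsel [0, 0] [2, 2] W1 rfl (by decide) rfl (evn_pair el el_sq 2)

theorem lf2 : (∀ p ∈ W2, p ∈ cert.LS) ∧ ev (fun k => el (jm [2, 3] k)) W2 = 1 :=
  leaf_okJ cert el [2, 3] hsel [1, 0, 1, 0, 1, 0] [3, 2, 3, 2, 3, 2] W2 rfl (by decide) rfl (cox_one 3 2)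

theorem tree_ok : cert.tree.All (fun W => (∀ p ∈ W, p ∈ cert.LS) ∧ ev (fun k => el (jm [2, 3] k)) W = 1) :=
  ⟨⟨lf0, lf2⟩, lf1⟩

theorem subs_ok : AllS (fun XZ : List Letter × List Letter => (∀ p ∈ XZ.1, p ∈ cert.LS) ∧ (∀ p ∈ XZ.2, p ∈ cert.LS) ∧
    ev (fun k => el (jm [2, 3] k)) XZ.1 * ev (fun k => el (jm [2, 3] k)) XZ.2 ∈ KK el [2]) cert.subs :=
  ⟨sub_ok cert _ (KK el [2]) hsel [] [0] _ _ rfl rfl (by decide) (sub_memJ el [2, 3] [2] 0 (by decide)), trivial⟩

theorem hyp : Hyp cert (KK el [2]) (fun k => el (jm [2, 3] k)) := ⟨tree_ok, forall_of_allS subs_ok⟩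

theorem hrow : ∀ a < cert.M, row cert a = true := by
  intro a ha
  have ha' : a < 3 := ha
  exact loop_spec row_ok0 a (by omega) (by omega)

theorem ub (hf : Finite (KK el [2])) : Finite (KK el [2, 3]) ∧ Nat.card (KK el [2, 3]) ≤ 3 * Nat.card (KK el [2]) :=
  ub_stepJ el [2, 3] [2] el_sq hyp al0 hrow rfl cnt hf

end Cfsg.Agent.Lib.Helper19.OrdFi22.U6
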