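import Cfsg.Agent.Lib.Helper19.Fi22c.DataB
import Cfsg.Agent.Lib.Helper19.TC2P

/-! Generated file: certificates for the order of a presented group. -/

set_option autoImplicit false
set_option maxRecDepth 1000000

namespace Cfsg.Agent.Lib.Helper19.OrdFi22.Z

open Cfsg.Agent.Lib.Helper19.TCS (evn evn_rot evn_rev evn_pair AllS forall_of_allS lift_rels mk_eq_lift cox_swap shapeI prod_rep index_of_equiv orbit_ncard orbit_image ncard_interval fix_of_closure RC)
open Cfsg.Agent.Lib.Helper19.TC2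
open Cfsg.Agent.Lib.Helper19.Fi22c


noncomputable section

def XT (i : ℕ) : ℕ := f0 i
def fT (i : ℕ) : ℕ := XT i
def SW0 (i : ℕ) : ℕ := f0 i
def SW1 (i : ℕ) : ℕ := f2 i
def SW2 (i : ℕ) : ℕ := f3 i
def SW3 (i : ℕ) : ℕ := f4 i
def SW4 (i : ℕ) : ℕ := f5 i
def SW5 (i : ℕ) : ℕ := f6 i
def SW6 (i : ℕ) : ℕ := f7 i
def SW7 (i : ℕ) : ℕ := f8 i
def SW8_b0 (i : ℕ) : ℕ := f0 (f1 (f2 (f3 (f4 (f7 (f0 (f1 (f2 (f3 (f4 (f7 i)))))))))))
def SW8_b1 (i : ℕ) : ℕ := f0 (f1 (f2 (f3 (f4 (f7 i)))))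
def SW8 (i : ℕ) : ℕ := SW8_b0 (SW8_b0 (SW8_b1 i))
def CW (i : ℕ) : ℕ := i
def CV (i : ℕ) : ℕ := f0 i

end

theorem tA0 : loop (fun i => Nat.beq (XT i) (fT i)) 0 3510 = true := by decide +kernel

theorem tA : ∀ i < 3510, XT i = fT i := by
  intro i hi
  exact loop_beq2_r tA0 i (by omega) (by omega)

theorem tB0 : loop (fun i => Nat.beq (fT (SW0 i)) (SW0 (fT i))) 0 3510 = true := by decide +kernel

theorem tB1 : loop (fun i => Nat.beq (fT (SW1 i)) (SW1 (fT i))) 0 3510 = true := by decide +kernel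

theorem tB2 : loop (fun i => Nat.beq (fT (SW2 i)) (SW2 (fT i))) 0 3510 = true := by decide +kernel

theorem tB3 : loop (fun i => Nat.beq (fT (SW3 i)) (SW3 (fT i))) 0 3510 = true := by decide +kernel

theorem tB4 : loop (fun i => Nat.beq (fT (SW4 i)) (SW4 (fT i))) 0 3510 = true := by decide +kernel

theorem tB5 : loop (fun i => Nat.beq (fT (SW5 i)) (SW5 (fT i))) 0 3510 = true := by decide +kernel

theorem tB6 : loop (fun i => Nat.beq (fT (SW6 i)) (SW6 (fT i))) 0 3510 = true := by decide +kernel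

theorem tB7 : loop (fun i => Nat.beq (fT (SW7 i)) (SW7 (fT i))) 0 3510 = true := by decide +kernel

theorem tB8 : loop (fun i => Nat.beq (fT (SW8 i)) (SW8 (fT i))) 0 3510 = true := by decide +kernel

theorem tC : loop (fun i => Nat.beq (fT (CW i)) (CV i)) 0 3510 = true := by decide +kernel

end Cfsg.Agent.Lib.Helper19.OrdFi22.Z
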